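import Mathlib
import Cfsg.Agent.H562.PQR.Iface
import Cfsg.Agent.H376.SpEmb
import Cfsg.Agent.SignalizersComponents.SLQuasisimple
import Cfsg.Agent.S0242
import Cfsg.Agent.S0243
import Cfsg.Agent.S0245
import Cfsg.Agent.S0246

/-!
# S3988, the row `PSp_{2m}(q)`, `m ≥ 2` (task 2729, poster helper562)

`SL_2(q^j) → Sp_{2j}(q) → Sp_{2m}(q) → PSp_{2m}(q)`, `2 ≤ j ≤ m`, `p ∣ q^j (q^{2j} - 1)`.
-/

set_option autoImplicit false

namespace Cfsg.Agent.H973.PQR

open Cfsg Subgroup
open Cfsg.Agent.H562.PQR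

universe u

variable {F : Type u} [Field F] {m : ℕ}

/-- `|SL_2(q)| = q (q² - 1)` -/
theorem card_sl_two {K : Type*} [Field K] [Finite K] {q : ℕ} (hq : Nat.card K = q) :
    Nat.card (Matrix.SpecialLinearGroup (Fin 2) K) = q * (q ^ 2 - 1) := by
  have : Fintype K := Fintype.ofFinite K
  have h1 := Cfsg.Agent.S0242.result (F := K) (q := q) (by rw [← Nat.card_eq_fintype_card, hq]) 2 (by norm_num)
  have hq1 : 1 < q := by rw [← hq]; exact Finite.one_lt_card
  rw [Fin.prod_univ_two] at h1
  simp only [Fin.val_zero, Fin.val_one, pow_zero, pow_one] at h1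
  obtain ⟨r, rfl⟩ : ∃ r, q = r + 1 := ⟨q - 1, by omega⟩
  have h2 : (r + 1) ^ 2 - (r + 1) = (r + 1) * r := by
    rw [show (r + 1) ^ 2 = (r + 1) * r + (r + 1) by ring, Nat.add_sub_cancel]
  rw [h2, Nat.add_sub_cancel] at h1
  have h3 : 0 < r := by omega
  apply Nat.eq_of_mul_eq_mul_left h3
  rw [h1]
  ring

/-- the block embedding of `Sp_{2j}(F)` -/
noncomputable def emb (j k : ℕ) : Matrix.symplecticGroup (Fin j) F →* Matrix.symplecticGroup (Fin (j + k)) F :=
  ((H376.SpEmb.reidx finSumFinEquiv).comp (H376.SpEmb.blk (Fin j) (Fin k))).comp (MonoidHom.inl _ _)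

theorem emb_injective (j k : ℕ) : Function.Injective (emb (F := F) j k) := by
  intro x y h
  have h1 := H376.SpEmb.blk_injective _ _ (H376.SpEmb.reidx_injective finSumFinEquiv h)
  exact congrArg Prod.fst h1

variable [Finite F]

/-- the order of `PSp_{2m}(q)` is larger than that of `SL_2(q^j)` -/
theorem card_lt {j : ℕ} (hj : 2 ≤ j) (hjm : j ≤ m) {q : ℕ} (hq : Nat.card F = q) :
    q ^ j * ((q ^ j) ^ 2 - 1) < Nat.card (Cfsg.PSp m F) := by
  have : Fintype F := Fintype.ofFinite F
  have hF : Fintype.card F = q := by rw [← Nat.card_eq_fintype_card, hq]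
  have hq1 : 1 < q := by rw [← hq]; exact Finite.one_lt_card
  have h1 := Cfsg.Agent.S0245.result hF m
  have h2 := Cfsg.Agent.S0246.result hF m (by omega)
  have h3 := Subgroup.card_eq_card_quotient_mul_card_subgroup
    (Subgroup.center (Matrix.symplecticGroup (Fin m) F))
  rw [h1, h2] at h3
  have h4 : Nat.gcd 2 (q - 1) ≤ 2 := Nat.le_of_dvd (by norm_num) (Nat.gcd_dvd_left _ _)
  have h5 : (q ^ 2 - 1) * (q ^ (2 * j) - 1) ≤ ∏ i ∈ Finset.range m, (q ^ (2 * (i + 1)) - 1) := by
    have hpos : ∀ i ∈ Finset.range m, 1 ≤ q ^ (2 * (i + 1)) - 1 := by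
      intro i _
      have : q ^ 1 ≤ q ^ (2 * (i + 1)) := Nat.pow_le_pow_right (by omega) (by omega)
      rw [pow_one] at this
      omega
    have hsub : ({0, j - 1} : Finset ℕ) ⊆ Finset.range m := by
      intro i hi
      rw [Finset.mem_insert, Finset.mem_singleton] at hi
      rw [Finset.mem_range]
      omega
    have h6 := Finset.prod_le_prod_of_subset_of_one_le' (f := fun i => q ^ (2 * (i + 1)) - 1) hsub
      (fun i hi _ => hpos i hi)
    refine le_trans (le_of_eq ?_) h6
    rw [Finset.prod_pair (by omega)]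
    rw [show 2 * (0 + 1) = 2 by rfl, show 2 * (j - 1 + 1) = 2 * j by omega]
  have h6 : q ^ m * q ^ j ≤ q ^ (m ^ 2) := by
    rw [← pow_add]
    apply Nat.pow_le_pow_right (by omega)
    nlinarith
  have h7 : 4 ≤ q ^ 2 := by nlinarith
  have h8 : 4 ≤ q ^ m := by
    calc 4 ≤ q ^ 2 := h7
      _ ≤ q ^ m := Nat.pow_le_pow_right (by omega) (by omega)
  have h9 : 1 ≤ q ^ j := Nat.one_le_pow _ _ (by omega)
  have h10 : 1 ≤ q ^ (2 * j) - 1 := by
    have : q ^ 1 ≤ q ^ (2 * j) := Nat.pow_le_pow_right (by omega) (by omega)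
    rw [pow_one] at this
    omega
  rw [← pow_mul, mul_comm j 2]
  generalize q ^ (2 * j) - 1 = A at *
  generalize q ^ j = B at *
  set N := Nat.card (Cfsg.PSp m F) with hN
  have h11 : (4 * B) * (3 * A) ≤ N * 2 := by
    calc (4 * B) * (3 * A) ≤ (q ^ m * B) * ((q ^ 2 - 1) * A) := by
          apply Nat.mul_le_mul
          · exact Nat.mul_le_mul_right _ h8
          · exact Nat.mul_le_mul_right _ (by omega)
      _ ≤ q ^ (m ^ 2) * ∏ i ∈ Finset.range m, (q ^ (2 * (i + 1)) - 1) := Nat.mul_le_mul h6 h5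
      _ = N * Nat.gcd 2 (q - 1) := h3
      _ ≤ N * 2 := Nat.mul_le_mul_left _ h4
  have h12 : 1 ≤ B * A := Nat.mul_pos h9 h10
  nlinarith

/-- a proper subgroup of `PSp_{2m}(q)` involving `PSL_2(q^j)` -/
theorem notMin_of_dvd {j p : ℕ} (hj : 2 ≤ j) (hjm : j ≤ m) (hp : p.Prime) (hp2 : p ≠ 2)
    (hd : p ∣ Nat.card F ^ j * ((Nat.card F ^ j) ^ 2 - 1)) : NotMin p (Cfsg.PSp m F) := by
  classical
  have : NeZero j := ⟨by omega⟩
  obtain ⟨r, hr⟩ := CharP.exists F
  have : Fact r.Prime := ⟨CharP.char_is_prime F r⟩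
  have hKc : Nat.card (FiniteField.Extension F r j) = Nat.card F ^ j := FiniteField.natCard_extension F r j
  have hK : Finite (FiniteField.Extension F r j) := Nat.finite_of_card_ne_zero (by
    rw [hKc]; exact pow_ne_zero _ Nat.card_pos.ne')
  have hF2 : 2 ≤ Nat.card F := Finite.one_lt_card
  have h4 : 4 ≤ Nat.card (FiniteField.Extension F r j) := by
    rw [hKc]
    calc 4 = 2 ^ 2 := by norm_num
      _ ≤ Nat.card F ^ 2 := Nat.pow_le_pow_left hF2 2
      _ ≤ Nat.card F ^ j := Nat.pow_le_pow_right (by omega) hj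
  have hqs := SignalizersComponents.SLQuasisimple.isQuasisimple_two h4
  let b := Module.finBasisOfFinrankEq F (FiniteField.Extension F r j) (FiniteField.finrank_extension F r j)
  obtain ⟨k, rfl⟩ : ∃ k, m = j + k := ⟨m - j, by omega⟩
  let f0 : Matrix.SpecialLinearGroup (Fin 2) (FiniteField.Extension F r j) →*
      Matrix.symplecticGroup (Fin (j + k)) F := (emb j k).comp (H376.SpEmb.ofSLTwo b)
  have hf0 : Function.Injective f0 := (emb_injective j k).comp (H376.SpEmb.ofSLTwo_injective b)
  let f : Matrix.SpecialLinearGroup (Fin 2) (FiniteField.Extension F r j) →* Cfsg.PSp (j + k) F :=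
    (QuotientGroup.mk' (center (Matrix.symplecticGroup (Fin (j + k)) F))).comp f0
  let g := QuotientGroup.mk' (center (Matrix.SpecialLinearGroup (Fin 2) (FiniteField.Extension F r j)))
  have hs : IsSimpleGroup (Matrix.SpecialLinearGroup (Fin 2) (FiniteField.Extension F r j) ⧸
    center (Matrix.SpecialLinearGroup (Fin 2) (FiniteField.Extension F r j))) := hqs.2
  have hna : ∃ x y : Matrix.SpecialLinearGroup (Fin 2) (FiniteField.Extension F r j) ⧸
      center (Matrix.SpecialLinearGroup (Fin 2) (FiniteField.Extension F r j)), x * y ≠ y * x := by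
    by_contra hcon
    push Not at hcon
    have h1 : commutator (Matrix.SpecialLinearGroup (Fin 2) (FiniteField.Extension F r j)) = ⊤ :=
      hqs.1.commutator_eq_top
    have h2 : commutator (Matrix.SpecialLinearGroup (Fin 2) (FiniteField.Extension F r j)) ≤
        center (Matrix.SpecialLinearGroup (Fin 2) (FiniteField.Extension F r j)) := by
      rw [commutator_def, Subgroup.commutator_le]
      intro x _ y _
      rw [← QuotientGroup.eq_one_iff]
      have h3 := hcon (QuotientGroup.mk x) (QuotientGroup.mk y)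
      rw [commutatorElement_def]
      change (QuotientGroup.mk x * QuotientGroup.mk y * (QuotientGroup.mk x)⁻¹ * (QuotientGroup.mk y)⁻¹ :
        Matrix.SpecialLinearGroup (Fin 2) (FiniteField.Extension F r j) ⧸
        center (Matrix.SpecialLinearGroup (Fin 2) (FiniteField.Extension F r j))) = 1
      rw [h3]
      group
    rw [h1, top_le_iff] at h2
    have h3 := hs.exists_pair_ne
    obtain ⟨x, y, hxy⟩ := h3
    apply hxy
    obtain ⟨x', rfl⟩ := QuotientGroup.mk_surjective x
    obtain ⟨y', rfl⟩ := QuotientGroup.mk_surjective y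
    have e1 : (QuotientGroup.mk x' : Matrix.SpecialLinearGroup (Fin 2) (FiniteField.Extension F r j) ⧸
        center (Matrix.SpecialLinearGroup (Fin 2) (FiniteField.Extension F r j))) = 1 :=
      (QuotientGroup.eq_one_iff _).2 (h2 ▸ Subgroup.mem_top x')
    have e2 : (QuotientGroup.mk y' : Matrix.SpecialLinearGroup (Fin 2) (FiniteField.Extension F r j) ⧸
        center (Matrix.SpecialLinearGroup (Fin 2) (FiniteField.Extension F r j))) = 1 :=
      (QuotientGroup.eq_one_iff _).2 (h2 ▸ Subgroup.mem_top y')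
    rw [e1, e2]
  have hcS : Nat.card (Matrix.SpecialLinearGroup (Fin 2) (FiniteField.Extension F r j)) =
      Nat.card F ^ j * ((Nat.card F ^ j) ^ 2 - 1) := card_sl_two hKc
  have hpd : p ∣ Nat.card (Matrix.SpecialLinearGroup (Fin 2) (FiniteField.Extension F r j) ⧸
      center (Matrix.SpecialLinearGroup (Fin 2) (FiniteField.Extension F r j))) := by
    have h1 := Subgroup.card_eq_card_quotient_mul_card_subgroup
      (center (Matrix.SpecialLinearGroup (Fin 2) (FiniteField.Extension F r j)))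
    rw [← hcS, h1] at hd
    refine ((Nat.Prime.dvd_mul hp).1 hd).resolve_right fun h2 => hp2 ?_
    have : Fintype (FiniteField.Extension F r j) := Fintype.ofFinite _
    have h3 := Cfsg.Agent.S0242.result (F := FiniteField.Extension F r j) rfl 2 (by norm_num)
    have h4' := Cfsg.Agent.S0243.result (F := FiniteField.Extension F r j) rfl 2 le_rfl
    rw [← h3] at h4'
    have h5 : 0 < Fintype.card (FiniteField.Extension F r j) - 1 := by
      rw [← Nat.card_eq_fintype_card]; omega
    have h6 : Nat.gcd 2 (Fintype.card (FiniteField.Extension F r j) - 1) *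
        Nat.card (Matrix.SpecialLinearGroup (Fin 2) (FiniteField.Extension F r j) ⧸
          center (Matrix.SpecialLinearGroup (Fin 2) (FiniteField.Extension F r j))) =
        Nat.card (Matrix.SpecialLinearGroup (Fin 2) (FiniteField.Extension F r j)) := by
      apply Nat.eq_of_mul_eq_mul_left h5
      rw [← h4']
      change _ = Nat.gcd 2 (Fintype.card (FiniteField.Extension F r j) - 1) *
        ((Fintype.card (FiniteField.Extension F r j) - 1) *
        Nat.card (Matrix.SpecialLinearGroup (Fin 2) (FiniteField.Extension F r j) ⧸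
          center (Matrix.SpecialLinearGroup (Fin 2) (FiniteField.Extension F r j))))
      ring
    rw [h1, mul_comm] at h6
    have h7 : Nat.card (center (Matrix.SpecialLinearGroup (Fin 2) (FiniteField.Extension F r j))) =
        Nat.gcd 2 (Fintype.card (FiniteField.Extension F r j) - 1) :=
      (Nat.eq_of_mul_eq_mul_left Nat.card_pos h6).symm
    rw [h7] at h2
    exact (Nat.prime_dvd_prime_iff_eq hp Nat.prime_two).1 (h2.trans (Nat.gcd_dvd_left _ _))
  refine NotMin.of_hom_lt hna hp hpd f g (QuotientGroup.mk'_surjective _) ?_ ?_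
  · intro x hx
    rw [MonoidHom.mem_ker] at hx ⊢
    have h1 : f0 x ∈ center (Matrix.symplecticGroup (Fin (j + k)) F) := (QuotientGroup.eq_one_iff _).1 hx
    refine (QuotientGroup.eq_one_iff _).2 ?_
    rw [Subgroup.mem_center_iff] at h1 ⊢
    intro y
    apply hf0
    rw [map_mul, map_mul]
    exact h1 (f0 y)
  · rw [hcS]
    exact card_lt hj hjm rfl

/-- **the row `PSp_{2m}(q)`**, `m ≥ 2`: `NotMin p` for every odd prime `p` -/
theorem notMin_psp (hm : 2 ≤ m) {p : ℕ} (hp : p.Prime) (hp2 : p ≠ 2) (hd : p ∣ Nat.card (Cfsg.PSp m F)) :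
    NotMin p (Cfsg.PSp m F) := by
  have : Fintype F := Fintype.ofFinite F
  have hF : Fintype.card F = Nat.card F := by rw [← Nat.card_eq_fintype_card]
  have h1 := Cfsg.Agent.S0245.result hF m
  have h3 := Subgroup.card_eq_card_quotient_mul_card_subgroup
    (Subgroup.center (Matrix.symplecticGroup (Fin m) F))
  have h4 : p ∣ Nat.card (Matrix.symplecticGroup (Fin m) F) := by
    rw [h3]
    exact hd.mul_right _
  rw [h1] at h4
  rcases hp.dvd_mul.1 h4 with h5 | h5
  · exact notMin_of_dvd le_rfl hm hp hp2 ((dvd_pow (hp.dvd_of_dvd_pow h5) (by norm_num)).mul_right _)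
  · obtain ⟨i, hi, h6⟩ := (Prime.dvd_finsetProd_iff hp.prime _).1 h5
    rw [Finset.mem_range] at hi
    rcases Nat.eq_zero_or_pos i with h0 | h0
    · subst h0
      refine notMin_of_dvd le_rfl hm hp hp2 (Dvd.dvd.mul_left (h6.trans ?_) _)
      rw [← pow_mul]
      exact Nat.pow_sub_one_dvd_pow_sub_one _ ⟨2, by norm_num⟩
    · refine notMin_of_dvd (j := i + 1) (by omega) (by omega) hp hp2 (Dvd.dvd.mul_left ?_ _)
      rw [← pow_mul, mul_comm (i + 1) 2]
      exact h6

theorem row_psp (hm : 2 ≤ m) : RowOdd (Cfsg.PSp m F) := fun _ hp hp2 hd => Or.inl (notMin_psp hm hp hp2 hd)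

end Cfsg.Agent.H973.PQR
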